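import Cfsg.Agent.H732.VZ.Exc

/-!
# One vanishing class: closing tools for small groups

`c = |C_G(x)|` for the class of zeros of `x`.

* `card_le_of_two` : `|G| ≤ M c` if `x` is a `2`-element, `M` the number of `2`-elements;
* `even_excess`, `even_excess'` : inequalities for characters of even degree;
* `One.of_pow` : Burnside for prime power degrees;
* `not_small` : `c ≠ 1, 2, 3`;  `c_five` : `c ≠ 5`.
-/

set_option autoImplicit false

namespace Cfsg.Agent.H732.VZ

open Cfsg Cfsg.Agent.Characters Cfsg.Agent.CharactersDeep Cfsg.Agent.H686.CharKit Finset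
open Cfsg.Agent.H695.OneZero (Gal)
open Cfsg.Agent.H730.OZ (pSet)

universe u

variable {G : Type u} [Group G] [Fintype G]

/-- `g` is an `r`-element. -/
def IsREl (r : ℕ) (g : G) : Prop := ∃ k : ℕ, orderOf g = r ^ k

omit [Fintype G] in
theorem IsREl.conj {r : ℕ} {g h : G} (hg : IsREl r g) (hc : IsConj g h) : IsREl r h := by
  obtain ⟨k, hk⟩ := hg
  obtain ⟨c, rfl⟩ := isConj_iff.1 hc
  refine ⟨k, ?_⟩
  rw [← hk]
  exact orderOf_injective (MulAut.conj c).toMonoidHom (MulAut.conj c).injective g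

omit [Fintype G] in
theorem orderOf_conj' {g h : G} (hc : IsConj g h) : orderOf g = orderOf h := by
  obtain ⟨c, rfl⟩ := isConj_iff.1 hc
  exact (orderOf_injective (MulAut.conj c).toMonoidHom (MulAut.conj c).injective g).symm

open scoped Classical in
/-- The finset of `r`-elements. -/
noncomputable def rels (G : Type u) [Group G] [Fintype G] (r : ℕ) : Finset G :=
  univ.filter fun g : G => IsREl r g

theorem mem_rels {r : ℕ} {g : G} : g ∈ rels G r ↔ IsREl r g := by simp [rels]

theorem card_rels (r : ℕ) : (rels G r).card = (pSet r G).ncard := by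
  classical
  rw [Set.ncard_eq_toFinset_card']
  congr 1
  ext g
  rw [mem_rels, Set.mem_toFinset]
  rfl

theorem rels_gal (r : ℕ) : Gal (rels G r) := by
  intro g hg k hk
  rw [mem_rels] at hg ⊢
  obtain ⟨a, ha⟩ := hg
  obtain ⟨b, -, hb⟩ : ∃ b ≤ a, orderOf (g ^ k) = r ^ b ∨ orderOf (g ^ k) = r ^ b := by
    refine ⟨a, le_rfl, Or.inl ?_⟩
    rw [← ha]
    exact Nat.Coprime.orderOf_pow (hk.coprime_dvd_right (orderOf_dvd_natCard g)).symm
  exact ⟨b, hb.elim id id⟩

theorem card_le_of_two {χ : IrrCharacter G} {x : G} (_h : One χ x) {r M : ℕ} (hM : (pSet r G).ncard = M)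
    (hx : IsREl r x) : Nat.card G ≤ M * Nat.card (Subgroup.centralizer ({x} : Set G)) := by
  rw [← card_cl x, ← hM, ← card_rels]
  refine Nat.mul_le_mul_right _ (Finset.card_le_card fun y hy => ?_)
  exact mem_rels.2 (hx.conj (mem_cl.1 hy))

open scoped Classical in
/-- The `2`-elements which are not zeros. -/
theorem ex_rels {χ : IrrCharacter G} (hd : 2 ∣ charDegree (χ : G → ℂ)) :
    Ex χ ((rels G 2).filter fun g => (χ : G → ℂ) g ≠ 0)
      ((rels G 2).filter fun g => (χ : G → ℂ) g ≠ 0).card := by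
  refine ex_two ?_ χ hd (fun g hg => mem_rels.1 (mem_filter.1 hg).1) fun g hg => (mem_filter.1 hg).2
  intro g hg k hk
  rw [mem_filter] at hg ⊢
  refine ⟨rels_gal 2 g hg.1 k hk, fun h0 => hg.2 ?_⟩
  obtain ⟨σ, hσ⟩ := GaloisBasic.exists_ringEquiv_of_coprime (G := G) hk
  have h1 := hσ _ (Core.isIrr_isCharacter χ.2) g
  rw [h0] at h1
  exact (map_eq_zero_iff σ σ.injective).1 h1

open scoped Classical in
/-- Even degree with a rational `2`-element `u` which is not a zero. -/
theorem ex_rels' {χ : IrrCharacter G} (hd : 2 ∣ charDegree (χ : G → ℂ)) {u : G} (hu : RatEl u)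
    (hu2 : IsREl 2 u) (hu0 : (χ : G → ℂ) u ≠ 0) :
    Ex χ ((rels G 2).filter fun g => (χ : G → ℂ) g ≠ 0)
      (((rels G 2).filter fun g => (χ : G → ℂ) g ≠ 0).card + 2 * (cl u).card) := by
  obtain ⟨k, hk⟩ := hu2
  set Y := (rels G 2).filter fun g => (χ : G → ℂ) g ≠ 0 with hY
  have h1 := ex_rels hd
  have h2 : Ex χ (cl u) (3 * (cl u).card) :=
    ex_rat hu Nat.prime_two χ hd (a := k) (by rw [← hk, pow_orderOf_eq_one]) hu0
  have hsub : cl u ⊆ Y := by
    intro g hg
    rw [hY, mem_filter, mem_rels]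
    refine ⟨IsREl.conj ⟨k, hk⟩ (mem_cl.1 hg), h2.ne g hg⟩
  have h3 : Ex χ (Y \ cl u) (Y \ cl u).card := by
    refine ex_two ?_ χ hd (fun g hg => ?_) fun g hg => ?_
    · intro g hg m hm
      rw [mem_sdiff] at hg ⊢
      refine ⟨h1.gal g hg.1 m hm, fun hc => hg.2 ?_⟩
      have hg' := h2.gal.compl g (by rw [mem_compl]; exact hg.2) m hm
      rw [mem_compl] at hg'
      exact absurd hc hg'
    · exact mem_rels.1 (mem_filter.1 (mem_sdiff.1 hg).1).1
    · exact (mem_filter.1 (mem_sdiff.1 hg).1).2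
  have h4 := h3.union h2 (Finset.sdiff_disjoint)
  rw [Finset.sdiff_union_of_subset hsub, Finset.card_sdiff_of_subset hsub] at h4
  have h5 : (cl u).card ≤ Y.card := Finset.card_le_card hsub
  refine h4.mono ?_
  omega

/-- **Even degree.**  `Y` a set of elements which are not `2`-elements. -/
theorem even_excess_gen {χ : IrrCharacter G} {x : G} (h : One χ x) {M t : ℕ}
    (hM : (pSet 2 G).ncard = M) [DecidablePred fun g : G => (χ : G → ℂ) g ≠ 0]
    (h2 : Ex χ ((rels G 2).filter fun g => (χ : G → ℂ) g ≠ 0)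
      (((rels G 2).filter fun g => (χ : G → ℂ) g ≠ 0).card + t))
    {Y : Finset G} {e : ℕ} (hY : Ex χ Y e) (hYn : ∀ g ∈ Y, ¬ IsREl 2 g) :
    (¬ IsREl 2 x → (M + t + e) * Nat.card (Subgroup.centralizer ({x} : Set G)) ≤ Nat.card G) ∧
      (M + t + e) * Nat.card (Subgroup.centralizer ({x} : Set G)) ≤ 2 * Nat.card G := by
  classical
  have hdis : Disjoint ((rels G 2).filter fun g => (χ : G → ℂ) g ≠ 0) Y :=
    Finset.disjoint_left.2 fun g hg hg' => hYn g hg' (mem_rels.1 (mem_filter.1 hg).1)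
  have h3 := (h2.union hY hdis).mul_le h
  have hz : ∀ g : G, (χ : G → ℂ) g = 0 ↔ IsConj x g := fun g => ⟨h.uniq g, fun hc => by
    obtain ⟨c, rfl⟩ := isConj_iff.1 hc
    rw [Core.isIrr_isClassFunction χ.2 x c, h.zero]⟩
  constructor
  · intro hx
    have hfil : (rels G 2).filter (fun g => (χ : G → ℂ) g ≠ 0) = rels G 2 := by
      rw [Finset.filter_eq_self]
      intro g hg h0
      exact hx ((mem_rels.1 hg).conj ((hz g).1 h0).symm)
    have hc : ((rels G 2).filter fun g => (χ : G → ℂ) g ≠ 0).card = M := by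
      rw [hfil, card_rels, hM]
    rwa [hc] at h3
  · have hc : M ≤ ((rels G 2).filter fun g => (χ : G → ℂ) g ≠ 0).card + (cl x).card := by
      rw [← hM, ← card_rels]
      rw [← Finset.card_filter_add_card_filter_not (s := rels G 2) (fun g => (χ : G → ℂ) g ≠ 0)]
      refine Nat.add_le_add_left (Finset.card_le_card fun g hg => ?_) _
      rw [mem_cl]
      exact (hz g).1 (not_not.1 (mem_filter.1 hg).2)
    have h4 := card_cl x
    calc (M + t + e) * Nat.card (Subgroup.centralizer ({x} : Set G))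
        ≤ (((rels G 2).filter fun g => (χ : G → ℂ) g ≠ 0).card + t + e + (cl x).card)
          * Nat.card (Subgroup.centralizer ({x} : Set G)) := Nat.mul_le_mul_right _ (by omega)
      _ = (((rels G 2).filter fun g => (χ : G → ℂ) g ≠ 0).card + t + e)
          * Nat.card (Subgroup.centralizer ({x} : Set G)) + Nat.card G := by rw [add_mul, h4]
      _ ≤ 2 * Nat.card G := by omega

theorem ex_empty (χ : IrrCharacter G) : Ex χ ∅ 0 :=
  ⟨fun g hg => absurd hg (Finset.notMem_empty g), fun g hg => absurd hg (Finset.notMem_empty g), by simp⟩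

theorem even_excess {χ : IrrCharacter G} {x : G} (h : One χ x) {M : ℕ}
    (hM : (pSet 2 G).ncard = M) (hd : 2 ∣ charDegree (χ : G → ℂ))
    {Y : Finset G} {e : ℕ} (hY : Ex χ Y e) (hYn : ∀ g ∈ Y, ¬ IsREl 2 g) :
    (¬ IsREl 2 x → (M + e) * Nat.card (Subgroup.centralizer ({x} : Set G)) ≤ Nat.card G) ∧
      (M + e) * Nat.card (Subgroup.centralizer ({x} : Set G)) ≤ 2 * Nat.card G := by
  classical
  have h1 := even_excess_gen (t := 0) h hM (by rw [add_zero]; exact ex_rels hd) hY hYn
  simpa using h1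

theorem even_excess' {χ : IrrCharacter G} {x : G} (h : One χ x) {M : ℕ}
    (hM : (pSet 2 G).ncard = M) (hd : 2 ∣ charDegree (χ : G → ℂ)) {u : G} (hu : RatEl u)
    (hu2 : IsREl 2 u) (hu0 : ¬ IsConj x u)
    {Y : Finset G} {e : ℕ} (hY : Ex χ Y e) (hYn : ∀ g ∈ Y, ¬ IsREl 2 g) :
    (¬ IsREl 2 x → (M + 2 * (cl u).card + e) * Nat.card (Subgroup.centralizer ({x} : Set G))
      ≤ Nat.card G) ∧
      (M + 2 * (cl u).card + e) * Nat.card (Subgroup.centralizer ({x} : Set G)) ≤ 2 * Nat.card G := by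
  classical
  exact even_excess_gen (t := 2 * (cl u).card) h hM
    (ex_rels' hd hu hu2 fun h0 => hu0 (h.uniq _ h0)) hY hYn

/-- Burnside for prime power degrees. -/
theorem One.of_pow [IsSimpleGroup G] (hna : ¬ IsMulCommutative G) {χ : IrrCharacter G} {x : G}
    (h : One χ x) {r k : ℕ} (hr : r.Prime) (hd : charDegree (χ : G → ℂ) = r ^ k) {g : G} (hg : g ≠ 1)
    (hi : ¬ r ∣ (Subgroup.centralizer ({g} : Set G)).index) : IsConj x g := by
  refine h.uniq g (eq_zero_of_coprime hna χ h.zero hg ?_)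
  rw [hd]
  exact Nat.Coprime.pow_right _ ((Nat.Prime.coprime_iff_not_dvd hr).2 hi).symm

/-- A character of prime power degree `r ^ k`: the zeros are the class of an element of order `r`
centralized by a Sylow `r`-subgroup. -/
theorem One.central [IsSimpleGroup G] (hna : ¬ IsMulCommutative G) {χ : IrrCharacter G} {x : G}
    (h : One χ x) {r k a m : ℕ} (hr : r.Prime) (hd : charDegree (χ : G → ℂ) = r ^ k)
    (hG : Nat.card G = r ^ a * m) (ha : a ≠ 0) :
    orderOf x = r ∧ r ^ a ∣ Nat.card (Subgroup.centralizer ({x} : Set G)) := by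
  obtain ⟨g, hg, hi⟩ := exists_central (G := G) hr (hG ▸ (dvd_pow_self r ha).mul_right m)
  have hg1 : g ≠ 1 := by
    rintro rfl
    rw [orderOf_one] at hg
    exact hr.one_lt.ne hg
  have hc := h.of_pow hna hr hd hg1 hi
  refine ⟨(orderOf_conj' hc).trans hg, ?_⟩
  have h1 : Nat.card (Subgroup.centralizer ({x} : Set G))
      = Nat.card (Subgroup.centralizer ({g} : Set G)) := by
    have e1 := card_cl x
    have e2 := card_cl g
    have e3 : cl x = cl g := by
      ext y
      rw [mem_cl, mem_cl]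
      exact ⟨fun h => hc.symm.trans h, fun h => hc.trans h⟩
    rw [e3] at e1
    exact Nat.eq_of_mul_eq_mul_left (card_cl_pos g) (e1.trans e2.symm)
  rw [h1]
  have h2 := Subgroup.card_mul_index (Subgroup.centralizer ({g} : Set G))
  have h3 : r ^ a ∣ Nat.card (Subgroup.centralizer ({g} : Set G))
      * (Subgroup.centralizer ({g} : Set G)).index := by
    rw [h2, hG]
    exact Dvd.intro _ rfl
  exact (Nat.Coprime.dvd_of_dvd_mul_right
    (Nat.Coprime.pow_left a ((Nat.Prime.coprime_iff_not_dvd hr).2 hi)) h3)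

theorem card_centralizer_eq {x g : G} (hc : IsConj x g) :
    Nat.card (Subgroup.centralizer ({x} : Set G)) = Nat.card (Subgroup.centralizer ({g} : Set G)) := by
  have e1 := card_cl x
  have e2 := card_cl g
  have e3 : cl x = cl g := by
    ext y
    rw [mem_cl, mem_cl]
    exact ⟨fun h => hc.symm.trans h, fun h => hc.trans h⟩
  rw [e3] at e1
  exact Nat.eq_of_mul_eq_mul_left (card_cl_pos g) (e1.trans e2.symm)

omit [Fintype G] in
theorem orderOf_dvd_centralizer {x y : G} (h : Commute y x) :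
    orderOf y ∣ Nat.card (Subgroup.centralizer ({x} : Set G)) := by
  have h1 : y ∈ Subgroup.centralizer ({x} : Set G) := Subgroup.mem_centralizer_singleton_iff.2 h
  have h2 := orderOf_dvd_natCard (⟨y, h1⟩ : Subgroup.centralizer ({x} : Set G))
  rwa [← Subgroup.orderOf_coe] at h2

theorem One.ne_one {χ : IrrCharacter G} {x : G} (h : One χ x) : x ≠ 1 := by
  rintro rfl
  have h1 := h.zero
  rw [← charDegree_irr χ] at h1
  have h2 := charDegree_pos χ
  have h3 : charDegree (χ : G → ℂ) = 0 := by exact_mod_cast h1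
  omega

/-- `c` is not a prime whose square divides the group order. -/
theorem One.ne_prime {χ : IrrCharacter G} {x : G} (h : One χ x) {r : ℕ} (hr : r.Prime)
    (h2 : r ^ 2 ∣ Nat.card G) : Nat.card (Subgroup.centralizer ({x} : Set G)) ≠ r := by
  intro hc
  have h1 : orderOf x ∣ r := hc ▸ orderOf_dvd_centralizer (Commute.refl x)
  have h3 : orderOf x = r := by
    rcases (Nat.dvd_prime hr).1 h1 with h4 | h4
    · exact absurd (orderOf_eq_one_iff.1 h4) h.ne_one
    · exact h4
  have h4 := sq_dvd_centralizer hr h2 h.ne_one ⟨1, by rw [pow_one, h3]⟩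
  rw [hc] at h4
  have h5 := Nat.le_of_dvd hr.pos h4
  have := hr.one_lt
  nlinarith

theorem One.two_le {χ : IrrCharacter G} {x : G} (h : One χ x) :
    2 ≤ Nat.card (Subgroup.centralizer ({x} : Set G)) := by
  have h1 := orderOf_dvd_centralizer (Commute.refl x)
  have h2 : orderOf x ≠ 1 := fun h2 => h.ne_one (orderOf_eq_one_iff.1 h2)
  have h3 := orderOf_pos x
  have h4 := Nat.le_of_dvd Nat.card_pos h1
  omega

/-- The excess inequality for one rational `r`-element. -/
theorem One.rat_le {χ : IrrCharacter G} {x : G} (h : One χ x) {r a : ℕ} (hr : r.Prime)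
    (hd : r ∣ charDegree (χ : G → ℂ)) {g : G} (hg : RatEl g) (hga : g ^ r ^ a = 1)
    (hx : ¬ IsConj x g) :
    (r ^ 2 - 1) * Nat.card (Subgroup.centralizer ({x} : Set G))
      ≤ Nat.card (Subgroup.centralizer ({g} : Set G)) := by
  have h1 := (ex_rat hg hr χ hd hga fun h0 => hx (h.uniq g h0)).mul_le h
  rw [← card_cl g] at h1
  have h2 := card_cl_pos g
  refine Nat.le_of_mul_le_mul_left ?_ h2
  calc _ = _ := by ring
    _ ≤ _ := h1

/-- Rationality from one conjugation. -/
theorem ratEl_of {g : G} {t : ℕ} (ht : IsConj g (g ^ t))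
    (hall : ∀ m < orderOf g, m.Coprime (orderOf g) → ∃ j < orderOf g, t ^ j % orderOf g = m) :
    RatEl g := by
  intro m hm
  have h1 : ∀ j : ℕ, IsConj g (g ^ t ^ j) := by
    intro j
    induction j with
    | zero => rw [pow_zero, pow_one]
    | succ j ih =>
      refine ih.trans ?_
      obtain ⟨c, hc⟩ := isConj_iff.1 ht
      refine isConj_iff.2 ⟨c, ?_⟩
      rw [← conj_pow, hc, ← pow_mul, pow_succ, mul_comm]
  have h2 : (m % orderOf g).Coprime (orderOf g) := by
    have h3 := hm.coprime_dvd_right (orderOf_dvd_natCard g)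
    rw [Nat.Coprime, ← Nat.gcd_rec, Nat.gcd_comm]
    exact h3
  obtain ⟨j, -, hj⟩ := hall _ (Nat.mod_lt _ (orderOf_pos g)) h2
  have h3 : g ^ m = g ^ t ^ j := by
    rw [← pow_mod_orderOf g m, ← hj, pow_mod_orderOf]
  rw [h3]
  exact h1 j

/-- Two conjugations. -/
theorem ratEl_of_two {g : G} {t s : ℕ} (ht : IsConj g (g ^ t)) (hs : IsConj g (g ^ s))
    (hall : ∀ m < orderOf g, m.Coprime (orderOf g) → ∃ j < orderOf g, ∃ i < orderOf g,
      t ^ j * s ^ i % orderOf g = m) :
    RatEl g := by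
  intro m hm
  have key : ∀ t : ℕ, IsConj g (g ^ t) → ∀ j : ℕ, IsConj g (g ^ t ^ j) := by
    intro t ht j
    induction j with
    | zero => rw [pow_zero, pow_one]
    | succ j ih =>
      refine ih.trans ?_
      obtain ⟨c, hc⟩ := isConj_iff.1 ht
      refine isConj_iff.2 ⟨c, ?_⟩
      rw [← conj_pow, hc, ← pow_mul, pow_succ, mul_comm]
  have h2 : (m % orderOf g).Coprime (orderOf g) := by
    have h3 := hm.coprime_dvd_right (orderOf_dvd_natCard g)
    rw [Nat.Coprime, ← Nat.gcd_rec, Nat.gcd_comm]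
    exact h3
  obtain ⟨j, -, i, -, hj⟩ := hall _ (Nat.mod_lt _ (orderOf_pos g)) h2
  have h3 : g ^ m = g ^ (t ^ j * s ^ i) := by
    rw [← pow_mod_orderOf g m, ← hj, pow_mod_orderOf]
  rw [h3, pow_mul]
  refine (key t ht j).trans ?_
  obtain ⟨c, hc⟩ := isConj_iff.1 (key s hs i)
  obtain ⟨b, hb⟩ := isConj_iff.1 (key t ht j)
  refine isConj_iff.2 ⟨b * c * b⁻¹, ?_⟩
  have e1 : b * c * b⁻¹ * g ^ t ^ j * (b * c * b⁻¹)⁻¹ = b * (c * (b⁻¹ * g ^ t ^ j * b) * c⁻¹) * b⁻¹ := by
    group
  have e2 : b⁻¹ * g ^ t ^ j * b = g := by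
    rw [← hb]
    group
  rw [e1, e2, hc, ← conj_pow, hb]

/-- If `r` divides `|G|` exactly once, the centralizers of two elements of order `r` have the same
order. -/
theorem card_centralizer_of_prime [Finite G] {r m : ℕ} (hr : r.Prime) (hG : Nat.card G = r * m)
    (hm : ¬ r ∣ m) {x g : G} (hx : orderOf x = r) (hg : orderOf g = r) :
    Nat.card (Subgroup.centralizer ({x} : Set G)) = Nat.card (Subgroup.centralizer ({g} : Set G)) := by
  have : Fact r.Prime := ⟨hr⟩
  have hfac : (Nat.card G).factorization r = 1 := by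
    have hm0 : m ≠ 0 := by
      rintro rfl
      exact hm (dvd_zero r)
    rw [hG, Nat.factorization_mul hr.ne_zero hm0, Finsupp.add_apply, hr.factorization_self,
      Nat.factorization_eq_zero_of_not_dvd hm]
  have hcard : ∀ y : G, orderOf y = r → Nat.card (Subgroup.zpowers y) = r ^ (Nat.card G).factorization r := by
    intro y hy
    rw [Nat.card_zpowers, hy, hfac, pow_one]
  let P : Sylow r G := Sylow.ofCard _ (hcard x hx)
  let Q : Sylow r G := Sylow.ofCard _ (hcard g hg)
  obtain ⟨c, hc⟩ := MulAction.exists_smul_eq G P Q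
  have h1 : c * x * c⁻¹ ∈ Subgroup.zpowers g := by
    have h2 : c * x * c⁻¹ ∈ ((c • P : Sylow r G) : Subgroup G) := by
      rw [Sylow.coe_subgroup_smul]
      exact Subgroup.smul_mem_pointwise_smul _ (MulAut.conj c) (P : Subgroup G) (Subgroup.mem_zpowers x)
    rw [hc] at h2
    exact h2
  have hord : orderOf (c * x * c⁻¹) = r := by
    rw [← hx]
    exact orderOf_injective (MulAut.conj c).toMonoidHom (MulAut.conj c).injective x
  have h3 : Subgroup.zpowers (c * x * c⁻¹) = Subgroup.zpowers g := by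
    refine Subgroup.eq_of_le_of_card_ge ?_ ?_
    · rw [Subgroup.zpowers_le]
      exact h1
    · rw [Nat.card_zpowers, Nat.card_zpowers, hord, hg]
  have h4 : ∀ a b : G, Subgroup.zpowers a = Subgroup.zpowers b →
      Subgroup.centralizer ({a} : Set G) = Subgroup.centralizer ({b} : Set G) := by
    intro a b hab
    rw [← Subgroup.centralizer_closure, ← Subgroup.zpowers_eq_closure, hab,
      Subgroup.zpowers_eq_closure, Subgroup.centralizer_closure]
  rw [card_centralizer_eq (g := c * x * c⁻¹) (isConj_iff.2 ⟨c, rfl⟩), h4 _ _ h3]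

end Cfsg.Agent.H732.VZ
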